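import Mathlib
import Cfsg.Agent.H507.DPi
import Cfsg.Agent.Lib.GoldschmidtFusion
import Cfsg.Agent.S0877
import Cfsg.Agent.Blocks.SylowIn

/-!
# Control of fusion by a dominant Hall subgroup with `π'`-closed local subgroups

`G` is a finite group with a dominant Hall `π`-subgroup `H` (`DHall π H`) such that the normalizer of every
non-trivial `p`-subgroup, `p ∈ π`, is `π'`-closed. Then `H` controls the fusion of its elements, and `G` is
`π'`-closed by the Brauer–Suzuki transfer theorem.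
-/

set_option autoImplicit false

namespace Cfsg.Agent.H507.HallFusion

open Subgroup Cfsg.Agent.H506.PiHomog Cfsg.Agent.H507.PiExt Cfsg.Agent.H507.DPi
open Cfsg.Agent.Lib.GoldschmidtFusion (Gen gen_of_conj mem_normalizer_iff_map_conj)
open scoped Pointwise

universe u

variable {G : Type*} [Group G] [Finite G] {π : Set ℕ}

/-- Sylow's theorem inside a subgroup. -/
theorem exists_conj_le {p : ℕ} [Fact p.Prime] {X Q T : Subgroup G}
    (hQ : IsPGroup p Q) (hi : ¬ p ∣ Q.relIndex X) (hTX : T ≤ X) (hT : IsPGroup p T) :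
    ∃ n ∈ X, T.map (MulAut.conj n).toMonoidHom ≤ Q := by
  have hQ' : IsPGroup p (Q.subgroupOf X) := hQ.comap_of_injective X.subtype X.subtype_injective
  have hT' : IsPGroup p (T.subgroupOf X) := hT.comap_of_injective X.subtype X.subtype_injective
  let Q1 : Sylow p X := hQ'.toSylow hi
  obtain ⟨R, hR⟩ := hT'.exists_le_sylow
  obtain ⟨n, hn⟩ := MulAction.exists_smul_eq X R Q1
  refine ⟨n, n.2, ?_⟩
  rintro _ ⟨t, ht, rfl⟩
  have h1 : (⟨t, hTX ht⟩ : X) ∈ (R : Subgroup X) := hR ht
  have h2 : n * ⟨t, hTX ht⟩ * n⁻¹ ∈ (Q1 : Subgroup X) := by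
    rw [← hn]
    have : MulAut.conj n • (⟨t, hTX ht⟩ : X) ∈ MulAut.conj n • (R : Subgroup X) :=
      Subgroup.smul_mem_pointwise_smul _ _ _ h1
    exact this
  exact h2

/-- `S` is a Hall `π`-subgroup of `X`. -/
structure HallIn (π : Set ℕ) (S X : Subgroup G) : Prop where
  le : S ≤ X
  card : PiNum π (Nat.card S)
  rel : PiNum πᶜ (S.relIndex X)

omit [Finite G] in
theorem map_conj_eq_of_mem {X : Subgroup G} {n : G} (hn : n ∈ X) :
    X.map (MulAut.conj n).toMonoidHom = X :=
  mem_normalizer_iff_map_conj.1 (Subgroup.le_normalizer hn)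

omit [Finite G] in
theorem HallIn.conj {S X : Subgroup G} (h : HallIn π S X) {n : G} (hn : n ∈ X) :
    HallIn π (S.map (MulAut.conj n).toMonoidHom) X := by
  refine ⟨?_, ?_, ?_⟩
  · exact (Subgroup.map_mono h.le).trans (map_conj_eq_of_mem hn).le
  · rw [card_map_conj]; exact h.card
  · have h1 := Subgroup.relIndex_map_map_of_injective S X (f := (MulAut.conj n).toMonoidHom)
      (MulAut.conj n).injective
    rw [map_conj_eq_of_mem hn] at h1
    rw [h1]; exact h.rel

omit [Finite G] in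
theorem HallIn.mono {S S' X : Subgroup G} (h : HallIn π S X) (hSS' : S ≤ S') (hX : S' ≤ X)
    (hc : PiNum π (Nat.card S')) : HallIn π S' X :=
  ⟨hX, hc, h.rel.mono (Subgroup.relIndex_dvd_of_le_left X hSS')⟩

theorem HallIn.exists_ge {S X T : Subgroup G} (h : HallIn π S X) {p : ℕ} [hp : Fact p.Prime]
    (hpπ : p ∈ π) (hTX : T ≤ X) (hT : IsPGroup p T) :
    ∃ n ∈ X, T ≤ S.map (MulAut.conj n).toMonoidHom := by
  let Q0 : Sylow p S := default
  set Q : Subgroup G := (Q0 : Subgroup S).map S.subtype with hQ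
  have hQS : Q ≤ S := map_subtype_le _
  have hrel : ¬ p ∣ Q.relIndex X := by
    intro hd
    rw [← Subgroup.relIndex_mul_relIndex Q S X hQS h.le] at hd
    rcases hp.out.dvd_mul.1 hd with h1 | h1
    · have h2 : Q.relIndex S = (Q0 : Subgroup S).index := by
        rw [Subgroup.relIndex, hQ, Subgroup.subgroupOf,
          Subgroup.comap_map_eq_self_of_injective S.subtype_injective]
      rw [h2] at h1
      exact Q0.not_dvd_index h1
    · exact h.rel p hp.out h1 hpπ
  obtain ⟨n, hn, hle⟩ := exists_conj_le (Q0.isPGroup'.map _) hrel hTX hT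
  refine ⟨n⁻¹, X.inv_mem hn, ?_⟩
  have h1 := Subgroup.map_mono (f := (MulAut.conj n⁻¹).toMonoidHom) (hle.trans hQS)
  rwa [map_conj_inv_map_conj] at h1

/-- The normal Hall `π'`-subgroup of a `π'`-closed subgroup. -/
structure CoreIn (π : Set ℕ) (W X : Subgroup G) : Prop where
  le : W ≤ X
  norm : X ≤ normalizer (W : Set G)
  card : PiNum πᶜ (Nat.card W)
  rel : PiNum π (W.relIndex X)

theorem exists_coreIn {X : Subgroup G} (h : ClosedPr π X) : ∃ W, CoreIn π W X := by
  obtain ⟨W, hWc, hW1, hW2, -⟩ := exists_normal_of_closedPr h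
  have hWn : W.Normal := Subgroup.normal_of_characteristic W
  have h2 : (W.map X.subtype).subgroupOf X = W := by
    rw [Subgroup.subgroupOf, Subgroup.comap_map_eq_self_of_injective X.subtype_injective]
  refine ⟨W.map X.subtype, map_subtype_le _, ?_, ?_, ?_⟩
  · exact (Subgroup.normal_subgroupOf_iff_le_normalizer (map_subtype_le W)).1 (by rwa [h2])
  · rwa [Subgroup.card_map_of_injective X.subtype_injective]
  · rwa [Subgroup.relIndex, h2]

theorem exists_hallIn {X : Subgroup G} (h : ClosedPr π X) : ∃ S, HallIn π S X := by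
  obtain ⟨W, hWc, hW1, hW2, -⟩ := exists_normal_of_closedPr h
  have hWn : W.Normal := Subgroup.normal_of_characteristic W
  have hcop : (Nat.card W).Coprime W.index := PiNum.coprime' hW1 hW2
  obtain ⟨S, hS⟩ := Subgroup.exists_right_complement'_of_coprime hcop
  refine ⟨S.map X.subtype, map_subtype_le _, ?_, ?_⟩
  · rw [Subgroup.card_map_of_injective X.subtype_injective, ← hS.symm.index_eq_card]
    exact hW2
  · rw [Subgroup.relIndex, Subgroup.subgroupOf,
      Subgroup.comap_map_eq_self_of_injective X.subtype_injective, hS.index_eq_card]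
    exact hW1

omit [Finite G] in
theorem CoreIn.factor {W S X : Subgroup G} (hW : CoreIn π W X) (hS : HallIn π S X) {x : G}
    (hx : x ∈ X) : ∃ s ∈ S, ∃ w ∈ W, x = s * w := by
  have hWn : (W.subgroupOf X).Normal :=
    (Subgroup.normal_subgroupOf_iff_le_normalizer hW.le).2 hW.norm
  have htop : S.subgroupOf X ⊔ W.subgroupOf X = ⊤ := by
    rw [← Subgroup.index_eq_one]
    exact Nat.eq_one_of_dvd_coprimes (PiNum.coprime hW.rel hS.rel)
      (Subgroup.index_dvd_of_le le_sup_right) (Subgroup.index_dvd_of_le le_sup_left)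
  have h1 : (⟨x, hx⟩ : X) ∈ S.subgroupOf X ⊔ W.subgroupOf X := by rw [htop]; trivial
  obtain ⟨s, hs, w, hw, h⟩ := Subgroup.mem_sup_of_normal_right.1 h1
  exact ⟨s, hs, w, hw, (congrArg Subtype.val h).symm⟩

omit [Finite G] in
/-- `W ∩ S = 1`. -/
theorem eq_one_of_mem {W S : Subgroup G} (hW : PiNum πᶜ (Nat.card W)) (hS : PiNum π (Nat.card S))
    {x : G} (h1 : x ∈ W) (h2 : x ∈ S) : x = 1 := by
  have h3 : orderOf x = 1 := Nat.eq_one_of_dvd_coprimes (PiNum.coprime' hW hS)
    (Subgroup.orderOf_dvd_natCard _ h1) (Subgroup.orderOf_dvd_natCard _ h2)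
  rwa [orderOf_eq_one_iff] at h3

omit [Finite G] in
/-- `[W, T] = 1` for a `π'`-subgroup `W` and a `π`-subgroup `T` normalizing each other. -/
theorem commute_of_norm {W T : Subgroup G} (hW : PiNum πᶜ (Nat.card W)) (hT : PiNum π (Nat.card T))
    (h1 : T ≤ normalizer (W : Set G)) (h2 : W ≤ normalizer (T : Set G)) {w t : G} (hw : w ∈ W)
    (ht : t ∈ T) : t * w = w * t := by
  have h3 : w * t * w⁻¹ * t⁻¹ ∈ T := T.mul_mem ((mem_normalizer_iff.1 (h2 hw) t).1 ht) (T.inv_mem ht)
  have h4 : w * t * w⁻¹ * t⁻¹ ∈ W := by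
    have : w * t * w⁻¹ * t⁻¹ = w * (t * w⁻¹ * t⁻¹) := by group
    rw [this]
    exact W.mul_mem hw ((mem_normalizer_iff.1 (h1 ht) _).1 (W.inv_mem hw))
  have h5 := eq_one_of_mem hW hT h4 h3
  rw [mul_inv_eq_one, mul_inv_eq_iff_eq_mul] at h5
  exact h5.symm

/-- `N_G(X) ⊆ H C_G(X)`. -/
def Good (H X : Subgroup G) : Prop :=
  ∀ g ∈ normalizer (X : Set G), ∃ h ∈ H, ∃ c ∈ centralizer (X : Set G), g = h * c

theorem good_of_hallIn {H X S : Subgroup G} (hX : PiNum π (Nat.card X))
    (hcl : ClosedPr π (normalizer (X : Set G))) (hS : HallIn π S (normalizer (X : Set G)))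
    (hSH : S ≤ H) : Good H X := by
  intro g hg
  obtain ⟨W, hW⟩ := exists_coreIn hcl
  obtain ⟨s, hs, w, hw, rfl⟩ := hW.factor hS hg
  refine ⟨s, hSH hs, w, ?_, rfl⟩
  rw [mem_centralizer_iff]
  intro x hx
  exact commute_of_norm hW.card hX (Subgroup.le_normalizer.trans hW.norm) hW.le hw hx

variable {p : ℕ} [hp : Fact p.Prime]

/-- the conclusion of the control theorem for `A` -/
def Ctl (H : Subgroup G) (P A : Subgroup G) : Prop :=
  ∀ g : G, A.map (MulAut.conj g).toMonoidHom ≤ P → ∃ h ∈ H, ∃ c ∈ centralizer (A : Set G), g = h * c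

theorem good_of_control {H : Subgroup G} (hH : DHall π H) (hpπ : p ∈ π)
    (P : Sylow p G) (hPH : (P : Subgroup G) ≤ H) {X : Subgroup G} (hXP : X ≤ P)
    (hcl : ClosedPr π (normalizer (X : Set G)))
    (IH : ∀ T : Subgroup G, T ≤ P → Nat.card X < Nat.card T → Ctl H (P : Subgroup G) T) :
    Good H X := by
  have hXp : IsPGroup p X := P.isPGroup'.to_le hXP
  have hXπ : PiNum π (Nat.card X) := piNum_of_isPGroup hp.out hpπ hXp
  set N := normalizer (X : Set G) with hN
  obtain ⟨S0, hS0⟩ := exists_hallIn hcl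
  set T : Subgroup G := (P : Subgroup G) ⊓ N with hT
  have hTp : IsPGroup p T := P.isPGroup'.to_le inf_le_left
  obtain ⟨n, hn, hTS⟩ := hS0.exists_ge hpπ (inf_le_right : T ≤ N) hTp
  have hS := hS0.conj hn
  set S := S0.map (MulAut.conj n).toMonoidHom with hSdef
  obtain ⟨a0, ha0⟩ := hH.dom S hS.card
  have hPrel : ¬ p ∣ (P : Subgroup G).relIndex H := fun hd =>
    P.not_dvd_index (hd.trans (Subgroup.relIndex_dvd_index_of_le hPH))
  obtain ⟨h0, hh0, hle⟩ := exists_conj_le P.isPGroup' hPrel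
    ((Subgroup.map_mono hTS).trans ha0) (hTp.map (MulAut.conj a0).toMonoidHom)
  rw [map_conj_map_conj] at hle
  have haH : S.map (MulAut.conj (h0 * a0)).toMonoidHom ≤ H := by
    rw [← map_conj_map_conj]
    exact (Subgroup.map_mono ha0).trans (map_conj_eq_of_mem hh0).le
  set a := h0 * a0 with ha
  rcases eq_or_lt_of_le hXP with hXeq | hlt
  · -- `X = P`
    have hTP : T = P := by
      rw [hT, inf_eq_left, hN, hXeq]
      exact Subgroup.le_normalizer
    rw [← hT, hTP] at hle
    have heq : (P : Subgroup G).map (MulAut.conj a).toMonoidHom = P :=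
      Subgroup.eq_of_le_of_card_ge hle (card_map_conj _ _).ge
    have haN : a ∈ N := by
      rw [hN, hXeq]
      exact mem_normalizer_iff_map_conj.2 heq
    exact good_of_hallIn hXπ hcl (hS.conj haN) haH
  · have hXT : X < T := by
      refine lt_of_le_of_ne (le_inf hXP Subgroup.le_normalizer) fun h => ?_
      have h1 := Cfsg.Agent.Blocks.SylowIn.eq_of_normalizer_inf_le P.isPGroup' hXP (by
        rw [inf_comm, ← hN, ← hT, ← h])
      exact hlt.ne h1.symm
    have hcard : Nat.card X < Nat.card T := by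
      rcases (Subgroup.card_le_of_le hXT.le).lt_or_eq with h | h
      · exact h
      · exact absurd (Subgroup.eq_of_le_of_card_ge hXT.le h.ge) hXT.ne
    obtain ⟨h, hh, c, hc, hac⟩ := IH T inf_le_left hcard a hle
    have hcX : c ∈ centralizer (X : Set G) := centralizer_le (by exact_mod_cast hXT.le) hc
    have hcN : c ∈ N := Subgroup.centralizer_le_normalizer _ hcX
    refine good_of_hallIn hXπ hcl (hS.conj hcN) ?_
    have hc' : c = h⁻¹ * a := by rw [hac]; group
    rw [hc', ← map_conj_map_conj]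
    exact (Subgroup.map_mono haH).trans (map_conj_eq_of_mem (H.inv_mem hh)).le

/-- **Control of `p`-fusion.** -/
theorem control {H : Subgroup G} (hH : DHall π H) (hpπ : p ∈ π)
    (P : Sylow p G) (hPH : (P : Subgroup G) ≤ H)
    (hcl : ∀ X : Subgroup G, X ≠ ⊥ → IsPGroup p X → ClosedPr π (normalizer (X : Set G))) (k : ℕ) :
    ∀ A : Subgroup G, A ≤ P → Nat.card P ≤ Nat.card A + k → Ctl H (P : Subgroup G) A := by
  induction k with
  | zero =>
    intro A hA hk
    by_cases hAb : A = ⊥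
    · intro g _
      refine ⟨1, H.one_mem, g, ?_, (one_mul g).symm⟩
      rw [hAb, mem_centralizer_iff]
      intro x hx
      have : x = 1 := by simpa using hx
      rw [this, one_mul, mul_one]
    · have hAP : A = P := Subgroup.eq_of_le_of_card_ge hA (by simpa using hk)
      have hgood := good_of_control hH hpπ P hPH hA (hcl A hAb (P.isPGroup'.to_le hA))
        (fun T hT hlt => absurd (Subgroup.card_le_of_le hT) (by rw [hAP] at hlt; exact not_le_of_gt hlt))
      intro g hg
      apply hgood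
      rw [mem_normalizer_iff_map_conj]
      rw [hAP] at hg ⊢
      exact Subgroup.eq_of_le_of_card_ge hg (card_map_conj _ _).ge
  | succ k ih =>
    intro A hA hk g hg
    by_cases hAb : A = ⊥
    · refine ⟨1, H.one_mem, g, ?_, (one_mul g).symm⟩
      rw [hAb, mem_centralizer_iff]
      intro x hx
      have : x = 1 := by simpa using hx
      rw [this, one_mul, mul_one]
    · have hgoodX : ∀ X : Subgroup G, X ≤ P → Nat.card A ≤ Nat.card X → Good H X := by
        intro X hX hAX
        have hXb : X ≠ ⊥ := by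
          rintro rfl
          rw [Subgroup.card_bot] at hAX
          exact hAb (Subgroup.card_le_one_iff_eq_bot A |>.1 hAX)
        exact good_of_control hH hpπ P hPH hX (hcl X hXb (P.isPGroup'.to_le hX))
          (fun T hT hlt => ih T hT (by omega))
      have hgen : Gen (P : Subgroup G) (fun X => Nat.card X < Nat.card A ∨ Good H X) A g := by
        refine gen_of_conj P _ (Or.inr (hgoodX _ le_rfl (Subgroup.card_le_of_le hA))) ?_ hA hg
        intro X hX _ _ _
        rcases lt_or_ge (Nat.card X) (Nat.card A) with h | h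
        · exact Or.inl h
        · exact Or.inr (hgoodX X hX.le h)
      have key : ∀ {A' : Subgroup G} {g' : G},
          Gen (P : Subgroup G) (fun X => Nat.card X < Nat.card A ∨ Good H X) A' g' →
          Nat.card A' = Nat.card A →
          ∃ h ∈ H, ∃ c ∈ centralizer (A' : Set G), g' = h * c := by
        intro A' g' h
        induction h with
        | cent _ hc => intro _; exact ⟨1, H.one_mem, _, hc, (one_mul _).symm⟩
        | @base A' X g' hX hF hAX hg =>
          intro hcard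
          rcases hF with hF | hF
          · exact absurd (Subgroup.card_le_of_le hAX) (not_le_of_gt (by rw [hcard]; exact hF))
          · obtain ⟨h, hh, c, hc, hgc⟩ := hF _ hg
            exact ⟨h, hh, c, centralizer_le (by exact_mod_cast hAX) hc, hgc⟩
        | @mul A' g' h' _ _ ih1 ih2 =>
          intro hcard
          obtain ⟨n₁, hn₁, c₁, hc₁, hg⟩ := ih1 hcard
          obtain ⟨n₂, hn₂, c₂, hc₂, hh⟩ := ih2 (by rw [card_map_conj, hcard])
          rw [Cfsg.Agent.Lib.GoldschmidtFusion.mem_centralizer_map_conj] at hc₂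
          refine ⟨n₂ * n₁, mul_mem hn₂ hn₁, c₁ * (g'⁻¹ * c₂ * g'), mul_mem hc₁ hc₂, ?_⟩
          have e : n₂ * n₁ * (c₁ * (g'⁻¹ * c₂ * g')) = n₂ * (n₁ * c₁) * g'⁻¹ * c₂ * g' := by group
          rw [e, ← hg, hh]
          group
      exact key hgen rfl

/-- Control of the fusion of `p`-elements. -/
theorem control_elt {H : Subgroup G} (hH : DHall π H) (hpπ : p ∈ π)
    (hcl : ∀ X : Subgroup G, X ≠ ⊥ → IsPGroup p X → ClosedPr π (normalizer (X : Set G)))
    {u v g : G} (hu : u ∈ H) (hv : v ∈ H) (hup : IsPGroup p (zpowers u)) (hg : g * u * g⁻¹ = v) :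
    ∃ h ∈ H, h * u * h⁻¹ = v := by
  obtain ⟨P0⟩ : Nonempty (Sylow p H) := inferInstance
  -- a Sylow subgroup of `G` in `H`
  have hPp : IsPGroup p ((P0 : Subgroup H).map H.subtype) := P0.isPGroup'.map _
  have hPH : (P0 : Subgroup H).map H.subtype ≤ H := map_subtype_le _
  have hPrel : ¬ p ∣ ((P0 : Subgroup H).map H.subtype).relIndex H := by
    rw [Subgroup.relIndex, Subgroup.subgroupOf,
      Subgroup.comap_map_eq_self_of_injective H.subtype_injective]
    exact P0.not_dvd_index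
  have hPi : ¬ p ∣ ((P0 : Subgroup H).map H.subtype).index := by
    rw [← Subgroup.relIndex_mul_index hPH]
    intro hd
    rcases hp.out.dvd_mul.1 hd with h1 | h1
    · exact hPrel h1
    · exact hH.index p hp.out h1 hpπ
  let P : Sylow p G := hPp.toSylow hPi
  have hPP : (P : Subgroup G) = (P0 : Subgroup H).map H.subtype := rfl
  have hvp : IsPGroup p (zpowers v) := by
    have := hup.map (MulAut.conj g).toMonoidHom
    rw [MonoidHom.map_zpowers] at this
    have e : (MulAut.conj g).toMonoidHom u = v := hg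
    rwa [e] at this
  obtain ⟨h1, hh1, hle1⟩ := exists_conj_le hPp hPrel (Subgroup.zpowers_le.2 hu) hup
  obtain ⟨h2, hh2, hle2⟩ := exists_conj_le hPp hPrel (Subgroup.zpowers_le.2 hv) hvp
  have hctl := control hH hpπ P (by rw [hPP]; exact hPH) hcl (Nat.card P)
    ((zpowers u).map (MulAut.conj h1).toMonoidHom) hle1 (Nat.le_add_left _ _) (h2 * g * h1⁻¹) (by
      rw [map_conj_map_conj]
      have e : h2 * g * h1⁻¹ * h1 = h2 * g := by group
      rw [e, ← map_conj_map_conj, MonoidHom.map_zpowers]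
      have e2 : (MulAut.conj g).toMonoidHom u = v := hg
      rw [e2]
      exact hle2)
  obtain ⟨h, hh, c, hc, hhc⟩ := hctl
  have hc' := mem_centralizer_iff.1 hc (h1 * u * h1⁻¹) ⟨u, mem_zpowers u, rfl⟩
  refine ⟨h2⁻¹ * h * h1, H.mul_mem (H.mul_mem (H.inv_mem hh2) hh) hh1, ?_⟩
  have hg' : g = h2⁻¹ * (h * c) * h1 := by rw [← hhc]; group
  have e3 : c * (h1 * u * h1⁻¹) * c⁻¹ = h1 * u * h1⁻¹ := by rw [← hc']; group
  calc h2⁻¹ * h * h1 * u * (h2⁻¹ * h * h1)⁻¹
      = h2⁻¹ * h * (h1 * u * h1⁻¹) * h⁻¹ * h2 := by group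
    _ = h2⁻¹ * h * (c * (h1 * u * h1⁻¹) * c⁻¹) * h⁻¹ * h2 := by rw [e3]
    _ = (h2⁻¹ * (h * c) * h1) * u * (h2⁻¹ * (h * c) * h1)⁻¹ := by group
    _ = v := by rw [← hg', hg]

omit hp in
/-- **Control of fusion.** -/
theorem control_all {H : Subgroup G} (hH : DHall π H)
    (hcl : ∀ p : ℕ, p.Prime → p ∈ π → ∀ X : Subgroup G, X ≠ ⊥ → IsPGroup p X →
      ClosedPr π (normalizer (X : Set G)))
    {x y g : G} (hx : x ∈ H) (hy : y ∈ H) (hg : g * x * g⁻¹ = y) :
    ∃ h ∈ H, h * x * h⁻¹ = y := by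
  by_cases hx1 : x = 1
  · refine ⟨1, H.one_mem, ?_⟩
    rw [← hg, hx1]; group
  obtain ⟨p, hpp, hpx⟩ := Nat.exists_prime_and_dvd (fun h => hx1 (orderOf_eq_one_iff.1 h) :
    orderOf x ≠ 1)
  have : Fact p.Prime := ⟨hpp⟩
  have hpπ : p ∈ π := hH.card p hpp (hpx.trans (Subgroup.orderOf_dvd_natCard _ hx))
  set m := orderOf x / p with hm
  have hum : orderOf (x ^ m) = p := by
    have h1 : m ∣ orderOf x := Nat.div_dvd_of_dvd hpx
    have h2 : m ≠ 0 := by
      rw [hm]
      exact (Nat.div_pos (Nat.le_of_dvd (orderOf_pos x) hpx) hpp.pos).ne'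
    rw [orderOf_pow_of_dvd h2 h1, hm]
    exact Nat.div_div_self hpx (orderOf_pos x).ne'
  have hup : IsPGroup p (zpowers (x ^ m)) := by
    rw [IsPGroup.iff_card]
    exact ⟨1, by rw [Nat.card_zpowers, hum, pow_one]⟩
  have huv : g * x ^ m * g⁻¹ = y ^ m := by rw [← conj_pow, hg]
  have hvm : orderOf (y ^ m) = p := by
    rw [← huv]
    have := (MulAut.conj g).orderOf_eq (x ^ m)
    rw [MulAut.conj_apply] at this
    rw [this, hum]
  obtain ⟨h, hh, hhu⟩ := control_elt hH hpπ (hcl p hpp hpπ) (H.pow_mem hx m) (H.pow_mem hy m) hup huv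
  set v := y ^ m with hv
  set x1 := h * x * h⁻¹ with hx1def
  have hx1m : x1 ^ m = v := by rw [hx1def, conj_pow, hhu]
  have hx1H : x1 ∈ H := H.mul_mem (H.mul_mem hh hx) (H.inv_mem hh)
  set C := centralizer ({v} : Set G) with hC
  have hvz : zpowers v ≠ ⊥ := by
    rw [Ne, Subgroup.zpowers_eq_bot]
    intro h0
    rw [h0, orderOf_one] at hvm
    exact hpp.one_lt.ne hvm
  have hvp : IsPGroup p (zpowers v) := by
    rw [IsPGroup.iff_card]
    exact ⟨1, by rw [Nat.card_zpowers, hvm, pow_one]⟩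
  have hCN : C ≤ normalizer ((zpowers v : Subgroup G) : Set G) := by
    refine le_trans ?_ (Subgroup.centralizer_le_normalizer _)
    intro z hz
    rw [hC, mem_centralizer_iff] at hz
    rw [mem_centralizer_iff]
    rintro _ ⟨j, rfl⟩
    exact Commute.zpow_left (hz v rfl) j
  have hCcl : ClosedPr π C := by
    have h1 := (hcl p hpp hpπ _ hvz hvp).subgroup (C.subgroupOf (normalizer ((zpowers v : Subgroup G) : Set G)))
    exact ClosedPr.of_mulEquiv (Subgroup.subgroupOfEquivOfLe hCN) h1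
  have hmemC : ∀ z, z ∈ C ↔ v * z = z * v := by
    intro z
    rw [hC, mem_centralizer_iff]
    constructor
    · intro h; exact h v rfl
    · intro h w hw
      rw [Set.mem_singleton_iff] at hw
      rw [hw]; exact h
  have hvC : v ∈ C := (hmemC v).2 rfl
  have hyC : y ∈ C := (hmemC y).2 ((Commute.refl y).pow_left m)
  have hx1C : x1 ∈ C := by
    rw [hmemC, ← hx1m]
    exact (Commute.refl x1).pow_left m
  -- `H ⊓ C` is a Hall subgroup of `C`
  obtain ⟨S0, hS0⟩ := exists_hallIn hCcl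
  obtain ⟨n, hn, hTS⟩ := hS0.exists_ge hpπ (Subgroup.zpowers_le.2 hvC) hvp
  have hS := hS0.conj hn
  set S := S0.map (MulAut.conj n).toMonoidHom with hSdef
  have hvS : v ∈ S := hTS (mem_zpowers v)
  obtain ⟨a, ha⟩ := hH.dom S hS.card
  have hav : a * v * a⁻¹ ∈ H := ha ⟨v, hvS, rfl⟩
  obtain ⟨h', hh', hh'v⟩ := control_elt hH hpπ (hcl p hpp hpπ) (H.pow_mem hy m) hav hvp rfl
  have hbC : h'⁻¹ * a ∈ C := by
    rw [hmemC]
    have e : a * v = h' * v * h'⁻¹ * a := by rw [hh'v]; group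
    calc v * (h'⁻¹ * a) = h'⁻¹ * (h' * v * h'⁻¹ * a) := by group
      _ = h'⁻¹ * (a * v) := by rw [e]
      _ = h'⁻¹ * a * v := by group
  have hSC := hS.conj hbC
  have hSH : S.map (MulAut.conj (h'⁻¹ * a)).toMonoidHom ≤ H := by
    rw [← map_conj_map_conj]
    exact (Subgroup.map_mono ha).trans (map_conj_eq_of_mem (H.inv_mem hh')).le
  have hHC : HallIn π (H ⊓ C) C := hSC.mono (le_inf hSH hSC.le) inf_le_right
    (hH.card.mono (Subgroup.card_dvd_of_le inf_le_left))
  obtain ⟨W, hW⟩ := exists_coreIn hCcl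
  have hkC : g * h⁻¹ ∈ C := by
    rw [hmemC]
    have e1 : g * h⁻¹ * v * (g * h⁻¹)⁻¹ = v := by
      rw [← hhu]
      calc g * h⁻¹ * (h * x ^ m * h⁻¹) * (g * h⁻¹)⁻¹ = g * x ^ m * g⁻¹ := by group
        _ = h * x ^ m * h⁻¹ := by rw [huv, hhu]
    calc v * (g * h⁻¹) = (g * h⁻¹ * v * (g * h⁻¹)⁻¹) * (g * h⁻¹) := by rw [e1]
      _ = g * h⁻¹ * v := by group
  obtain ⟨c, hc, w, hw, hcw⟩ := hW.factor hHC hkC
  have hy' : c⁻¹ * y * c = w * x1 * w⁻¹ := by
    have e : y = (g * h⁻¹) * x1 * (g * h⁻¹)⁻¹ := by rw [hx1def, ← hg]; group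
    rw [e, hcw]; group
  have h1 : w * x1 * w⁻¹ * x1⁻¹ ∈ W := by
    have : w * x1 * w⁻¹ * x1⁻¹ = w * (x1 * w⁻¹ * x1⁻¹) := by group
    rw [this]
    exact W.mul_mem hw ((mem_normalizer_iff.1 (hW.norm hx1C) _).1 (W.inv_mem hw))
  have h2 : w * x1 * w⁻¹ * x1⁻¹ ∈ H ⊓ C := by
    rw [← hy']
    have hyHC : y ∈ H ⊓ C := ⟨hy, hyC⟩
    have hxHC : x1 ∈ H ⊓ C := ⟨hx1H, hx1C⟩
    exact (H ⊓ C).mul_mem ((H ⊓ C).mul_mem ((H ⊓ C).mul_mem ((H ⊓ C).inv_mem hc) hyHC) hc)
      ((H ⊓ C).inv_mem hxHC)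
  have h3 := eq_one_of_mem hW.card hHC.card h1 h2
  rw [mul_inv_eq_one, ← hy'] at h3
  refine ⟨c * h, H.mul_mem hc.1 hh, ?_⟩
  have e4 : y = c * x1 * c⁻¹ := by rw [← h3]; group
  rw [e4, hx1def]; group

omit hp in
/-- **Main theorem.** -/
theorem closedPr_of_local (hD : DPi π G)
    (hcl : ∀ p : ℕ, p.Prime → p ∈ π → ∀ X : Subgroup G, X ≠ ⊥ → IsPGroup p X →
      ClosedPr π (normalizer (X : Set G))) : ClosedPr π G := by
  obtain ⟨H, hH⟩ := hD
  obtain ⟨K, hKn, hKH, hKi⟩ := Cfsg.Agent.S0877.result H (PiNum.coprime hH.card hH.index)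
    (fun x hx y hy hxy => by
      obtain ⟨g, hg⟩ := isConj_iff.1 hxy
      exact control_all hH hcl hx hy hg)
    (fun E _ _ _ hE => hH.dom E (hH.card.mono hE))
  have h1 : K.index = Nat.card H := by
    have e1 : K.relIndex (K ⊔ H) = K.relIndex H := Subgroup.relIndex_sup_left H K
    rw [hKH, Subgroup.relIndex_top_right] at e1
    rw [e1, ← Subgroup.inf_relIndex_right, hKi, Subgroup.relIndex_bot_left]
  have h2 : Nat.card K = H.index := by
    have e1 := K.card_mul_index
    have e2 := H.card_mul_index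
    rw [h1, ← e2, mul_comm] at e1
    exact Nat.eq_of_mul_eq_mul_left Nat.card_pos e1
  exact closedPr_of_normal K (by rw [h2]; exact hH.index) (by rw [h1]; exact hH.card)

theorem card_quotient_lt {X : Type*} [Group X] [Finite X] {N : Subgroup X} (hN : N ≠ ⊥) :
    Nat.card (X ⧸ N) < Nat.card X := by
  have h1 := Subgroup.card_mul_index N
  have h2 : 1 < Nat.card N := (Subgroup.one_lt_card_iff_ne_bot N).2 hN
  have h3 : 0 < N.index := Nat.pos_of_ne_zero Subgroup.index_ne_zero_of_finite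
  have h4 : N.index = Nat.card (X ⧸ N) := rfl
  rw [← h4]
  nlinarith

/-- A `D_π`-group with the weak homogeneity all of whose proper subgroups are `π'`-closed. -/
theorem closedPr_of_proper {π : Set ℕ} (n : ℕ) : ∀ (G : Type u) [Group G] [Finite G], Nat.card G = n →
    DPi π G → PHomog π G → (∀ M : Subgroup G, M ≠ ⊤ → ClosedPr π M) → ClosedPr π G := by
  induction n using Nat.strong_induction_on with
  | _ n ih =>
    intro G _ _ hn hD hG hM
    by_cases h1 : ∃ N : Subgroup G, N.Normal ∧ N ≠ ⊥ ∧ PiNum π (Nat.card N)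
    · obtain ⟨N, hNn, hNb, hN⟩ := h1
      exact closedPr_of_quotient_pi hG N hN (ih _ (by rw [← hn]; exact card_quotient_lt hNb) (G ⧸ N)
        rfl (hD.quotient_of_pi N hN) (hG.quotient N) (closedPr_subgroup_quotient hM N))
    push Not at h1
    refine closedPr_of_local hD fun p hp hpπ X hXb hX => hM _ fun htop => ?_
    exact h1 X (Subgroup.normalizer_eq_top_iff.1 htop) hXb (piNum_of_isPGroup hp hpπ hX)

end Cfsg.Agent.H507.HallFusion
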